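import Mathlib
import Cfsg.Agent.H571.DExtB
import Cfsg.Agent.Lib.CoprimeHyperplane
import Cfsg.Agent.Solvable.Hall

/-!
# A `{2,t}`-group acting on an elementary abelian 2-group, one fixed involution (helper464)

`φ : G →* MulAut W` injective, `W` elementary abelian 2-group, `T` a Sylow 2-subgroup of the solvable `{2,t}`-group `G`,
`T` has only one fixed involution `z` on `W`, `W` is generated by the orbit of `z`, which is not a fixed point:
`t ∣ 2 ^ n - 1` with `1 ≤ n ≤ 2 ^ j`, `2 ^ j ∣ t - 1` (`act_main`).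
-/

set_option autoImplicit false
set_option linter.unusedSectionVars false

namespace Cfsg.Agent.H464.RM.ZTAct

open Subgroup

universe u v

section one

variable {U : Type v} [CommGroup U] [Finite U]

/-- fixed points of an automorphism -/
def fixA (θ : MulAut U) : Subgroup U where
  carrier := {x | θ x = x}
  one_mem' := map_one θ
  mul_mem' := fun {x y} hx hy => by
    show θ (x * y) = x * y
    rw [map_mul, show θ x = x from hx, show θ y = y from hy]
  inv_mem' := fun {x} hx => by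
    show θ x⁻¹ = x⁻¹
    rw [map_inv, show θ x = x from hx]

theorem card_step (hsq : ∀ w : U, w * w = 1) (θ : MulAut U) :
    Nat.card (fixA (θ * θ)) ≤ Nat.card (fixA θ) ^ 2 := by
  have hinv : ∀ w : U, w⁻¹ = w := fun w => by rw [inv_eq_iff_mul_eq_one, hsq w]
  let ψ : fixA (θ * θ) →* U :=
    { toFun := fun v => v * θ v
      map_one' := by simp
      map_mul' := by
        rintro ⟨v, hv⟩ ⟨w, hw⟩
        show v * w * θ (v * w) = v * θ v * (w * θ w)
        rw [map_mul]
        exact mul_mul_mul_comm v w (θ v) (θ w) }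
  have hker : Nat.card ψ.ker ≤ Nat.card (fixA θ) := by
    have hle : ψ.ker.map (fixA (θ * θ)).subtype ≤ fixA θ := by
      rintro _ ⟨⟨v, hv⟩, hk, rfl⟩
      have h1 : v * θ v = 1 := hk
      show θ v = v
      rw [eq_inv_of_mul_eq_one_right h1, hinv]
    have h2 := Subgroup.card_le_of_le hle
    rwa [Subgroup.card_map_of_injective (fixA (θ * θ)).subtype_injective] at h2
  have hrange : Nat.card ψ.range ≤ Nat.card (fixA θ) := by
    refine Subgroup.card_le_of_le ?_
    rintro _ ⟨⟨v, hv⟩, rfl⟩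
    show θ (v * θ v) = v * θ v
    have h1 : θ (θ v) = v := hv
    rw [map_mul, h1, mul_comm]
  have h3 : Nat.card (fixA (θ * θ)) = Nat.card ψ.ker * Nat.card ψ.range := by
    rw [mul_comm, ← Nat.card_congr (QuotientGroup.quotientKerEquivRange ψ).toEquiv]
    exact Subgroup.card_eq_card_quotient_mul_card_subgroup ψ.ker
  rw [h3, sq]
  exact Nat.mul_le_mul hker hrange

theorem card_le_pow (hsq : ∀ w : U, w * w = 1) : ∀ (j : ℕ) (θ : MulAut U), θ ^ 2 ^ j = 1 →
    Nat.card U ≤ Nat.card (fixA θ) ^ (2 ^ j) := by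
  intro j
  induction j with
  | zero =>
    intro θ hθ
    rw [pow_zero, pow_one] at hθ ⊢
    have h1 : fixA θ = ⊤ := by
      rw [eq_top_iff]
      intro x _
      show θ x = x
      rw [hθ]; rfl
    rw [h1, card_top]
  | succ j ih =>
    intro θ hθ
    have h1 := ih (θ * θ) (by rw [← pow_two, ← pow_mul, ← pow_succ']; exact hθ)
    calc Nat.card U ≤ Nat.card (fixA (θ * θ)) ^ 2 ^ j := h1
      _ ≤ (Nat.card (fixA θ) ^ 2) ^ 2 ^ j := Nat.pow_le_pow_left (card_step hsq θ) _
      _ = _ := by rw [← pow_mul, pow_succ' 2 j]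

end one

variable {G : Type u} {W : Type v} [Group G] [Finite G] [CommGroup W] [Finite W] (φ : G →* MulAut W)

/-- fixed points of a subgroup -/
def fx (L : Subgroup G) : Subgroup W where
  carrier := {x | ∀ b ∈ L, φ b x = x}
  one_mem' := fun b _ => map_one _
  mul_mem' := fun {x y} hx hy b hb => by rw [map_mul, hx b hb, hy b hb]
  inv_mem' := fun {x} hx b hb => by rw [map_inv, hx b hb]

theorem mem_fx {L : Subgroup G} {x : W} : x ∈ fx φ L ↔ ∀ b ∈ L, φ b x = x := Iff.rfl

/-- a normalising element preserves the fixed points -/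
theorem fx_inv {L : Subgroup G} {g : G} (hg : ∀ b ∈ L, g⁻¹ * b * g ∈ L) {x : W} (hx : x ∈ fx φ L) :
    φ g x ∈ fx φ L := by
  intro b hb
  have h1 := hx _ (hg b hb)
  rw [map_mul, map_mul, MulAut.mul_apply, MulAut.mul_apply] at h1
  have h2 : φ g (φ g⁻¹ (φ b (φ g x))) = φ b (φ g x) := by
    rw [← MulAut.mul_apply, ← map_mul, mul_inv_cancel, map_one, MulAut.one_apply]
  rw [h1] at h2
  exact h2.symm

/-- a 2-group has a fixed point `≠ 1` -/
theorem exists_fixed {D : Subgroup G} (hD : IsPGroup 2 D) (hsq : ∀ w : W, w * w = 1) {U : Subgroup W} (hU : U ≠ ⊥)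
    (hinv : ∀ g ∈ D, ∀ u ∈ U, φ g u ∈ U) : ∃ u ∈ U, u ≠ 1 ∧ ∀ g ∈ D, φ g u = u := by
  have hF : Fact (Nat.Prime 2) := ⟨Nat.prime_two⟩
  let _ : MulAction D U :=
    { smul := fun g u => ⟨φ g u, hinv g g.2 u u.2⟩
      one_smul := fun u => Subtype.ext (by show φ ((1 : D) : G) u = u; rw [OneMemClass.coe_one, map_one]; rfl)
      mul_smul := fun g h u => Subtype.ext (by
        show φ ((g * h : D) : G) u = φ g (φ h u)
        rw [Subgroup.coe_mul, map_mul]; rfl) }
  have hUp : IsPGroup 2 U := fun u => ⟨1, Subtype.ext (by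
    show ((u : W)) ^ 2 ^ 1 = 1
    rw [pow_one, pow_two]; exact hsq u)⟩
  have hd : 2 ∣ Nat.card U := by
    obtain ⟨k, hk⟩ := hUp.exists_card_eq
    rw [hk]
    refine dvd_pow_self 2 ?_
    rintro rfl
    rw [pow_zero] at hk
    exact hU (Subgroup.eq_bot_of_card_eq U hk)
  obtain ⟨b, hb, hne⟩ := hD.exists_fixed_point_of_prime_dvd_card_of_fixed_point U hd (a := 1)
    (fun g => Subtype.ext (by show φ g (1 : W) = 1; rw [map_one]))
  refine ⟨b, b.2, fun h => hne (Subtype.ext h.symm), fun g hg => ?_⟩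
  exact congrArg Subtype.val (hb ⟨g, hg⟩)

/-- `t` divides `|U| - |C_U(x)|` -/
theorem card_mod {t : ℕ} (ht : t.Prime) {x : G} (hx : x ^ t = 1) {U : Subgroup W} (hinv : ∀ u ∈ U, φ x u ∈ U)
    (hfp : ∀ u ∈ U, φ x u = u → u = 1) : Nat.card U ≡ 1 [MOD t] := by
  have hF : Fact t.Prime := ⟨ht⟩
  have hinv' : ∀ g ∈ zpowers x, ∀ u ∈ U, φ g u ∈ U := by
    intro g hg u hu
    have h1 : ∀ n : ℕ, φ (x ^ n) u ∈ U := by
      intro n
      induction n with
      | zero => rw [pow_zero, map_one]; exact hu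
      | succ n ih => rw [pow_succ', map_mul]; exact hinv _ ih
    obtain ⟨n, rfl⟩ := (mem_powers_iff_mem_zpowers.2 hg : g ∈ Submonoid.powers x)
    exact h1 n
  let _ : MulAction (zpowers x) U :=
    { smul := fun g u => ⟨φ g u, hinv' g g.2 u u.2⟩
      one_smul := fun u => Subtype.ext (by
        show φ ((1 : zpowers x) : G) u = u; rw [OneMemClass.coe_one, map_one]; rfl)
      mul_smul := fun g h u => Subtype.ext (by
        show φ ((g * h : zpowers x) : G) u = φ g (φ h u)
        rw [Subgroup.coe_mul, map_mul]; rfl) }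
  have hX : IsPGroup t (zpowers x) := by
    rw [IsPGroup.iff_card, Nat.card_zpowers]
    rcases (Nat.dvd_prime ht).1 (orderOf_dvd_of_pow_eq_one hx) with h | h
    · exact ⟨0, by rw [h, pow_zero]⟩
    · exact ⟨1, by rw [h, pow_one]⟩
  have h1 := hX.card_modEq_card_fixedPoints U
  have h2 : Nat.card (MulAction.fixedPoints (zpowers x) U) = 1 := by
    rw [Nat.card_eq_one_iff_unique]
    refine ⟨⟨?_⟩, ⟨⟨1, fun g => Subtype.ext (by show φ g (1 : W) = 1; rw [map_one])⟩⟩⟩
    have key : ∀ a : MulAction.fixedPoints (zpowers x) U, a.1.1 = 1 := by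
      intro a
      have h3 := a.2 ⟨x, mem_zpowers x⟩
      exact hfp _ a.1.2 (congrArg Subtype.val h3)
    intro a b
    exact Subtype.ext (Subtype.ext ((key a).trans (key b).symm))
  rwa [h2] at h1

/-! ### the trace -/

section trace

variable {A : Subgroup G}

/-- the norm of `A` -/
noncomputable def nm (A : Subgroup G) [Fintype A] (w : W) : W := ∏ a : A, φ a w

variable [Fintype A]

theorem nm_mul (v w : W) : nm φ A (v * w) = nm φ A v * nm φ A w := by
  unfold nm
  rw [← Finset.prod_mul_distrib]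
  exact Finset.prod_congr rfl fun a _ => map_mul _ _ _

theorem nm_one : nm φ A 1 = 1 := by
  unfold nm
  exact Finset.prod_eq_one fun a _ => map_one _

theorem nm_prod {ι : Type*} (s : Finset ι) (f : ι → W) : nm φ A (∏ i ∈ s, f i) = ∏ i ∈ s, nm φ A (f i) := by
  classical
  induction s using Finset.induction_on with
  | empty => rw [Finset.prod_empty, Finset.prod_empty, nm_one]
  | insert i s hi ih => rw [Finset.prod_insert hi, Finset.prod_insert hi, nm_mul, ih]

theorem nm_mem (w : W) : nm φ A w ∈ fx φ A := by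
  intro b hb
  unfold nm
  rw [map_prod]
  calc ∏ a : A, φ b (φ a w) = ∏ a : A, φ (((⟨b, hb⟩ * a : A) : G)) w :=
        Finset.prod_congr rfl fun a _ => by rw [Subgroup.coe_mul, map_mul]; rfl
    _ = ∏ a : A, φ a w := Equiv.prod_comp (Equiv.mulLeft (⟨b, hb⟩ : A)) (fun a : A => φ a w)

theorem nm_comm {y : G} (hy : ∀ a ∈ A, y * a = a * y) {w : W} (hw : φ y w = w) : φ y (nm φ A w) = nm φ A w := by
  unfold nm
  rw [map_prod]
  refine Finset.prod_congr rfl fun a _ => ?_
  rw [← MulAut.mul_apply, ← map_mul, hy a a.2, map_mul, MulAut.mul_apply, hw]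

theorem nm_eq (hsq : ∀ w : W, w * w = 1) (hA : ¬ 2 ∣ Nat.card A) {w : W} (hw : w ∈ fx φ A) : nm φ A w = w := by
  unfold nm
  rw [Finset.prod_congr rfl fun (a : A) _ => hw a a.2, Finset.prod_const, Finset.card_univ, ← Nat.card_eq_fintype_card]
  obtain ⟨k, hk⟩ : ∃ k, Nat.card A = 2 * k + 1 := ⟨Nat.card A / 2, by omega⟩
  rw [hk, pow_succ, pow_mul, pow_two, hsq w, one_pow, one_mul]

end trace

/-- **the fixed points of `N_T(A)` on `C_W(A)` are `1` and `nm A z`** -/
theorem fix_small {A Z T : Subgroup G} [Fintype A] (hZc : ∀ x ∈ Z, ∀ y ∈ Z, x * y = y * x) (hZn : Z.Normal)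
    (hAZ : A ≤ Z) (hmax : ∀ y ∈ Z, y ∉ A → ∀ w ∈ fx φ A, φ y w = w → w = 1) (hsq : ∀ w : W, w * w = 1)
    (hA : ¬ 2 ∣ Nat.card A) {z : W} (hu : ∀ w : W, (∀ g ∈ T, φ g w = w) → w = 1 ∨ w = z)
    {u : W} (hu1 : u ∈ fx φ A) (hu2 : ∀ g ∈ T, g ∈ normalizer (A : Set G) → φ g u = u) :
    u = 1 ∨ u = nm φ A z := by
  classical
  set TA : Subgroup T := (normalizer (A : Set G)).subgroupOf T with hTA
  let f : T ⧸ TA → W := Quotient.lift (s := QuotientGroup.leftRel TA) (fun g : T => φ (g : G) u) (by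
    intro g h hgh
    have h1 : g⁻¹ * h ∈ TA := QuotientGroup.leftRel_apply.1 hgh
    have h2 : φ ((g⁻¹ * h : T) : G) u = u := hu2 _ (g⁻¹ * h).2 (mem_subgroupOf.1 h1)
    show φ (g : G) u = φ (h : G) u
    have h3 : (h : G) = g * ((g⁻¹ * h : T) : G) := by
      rw [← Subgroup.coe_mul, mul_inv_cancel_left]
    rw [h3, map_mul, MulAut.mul_apply, h2])
  have hf : ∀ g : T, f (QuotientGroup.mk g) = φ (g : G) u := fun g => rfl
  let _ : Fintype (T ⧸ TA) := Fintype.ofFinite _
  set tr : W := ∏ q : T ⧸ TA, f q with htr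
  have hinv : ∀ h ∈ T, φ h tr = tr := by
    intro h hh
    rw [htr, map_prod]
    calc ∏ q : T ⧸ TA, φ h (f q) = ∏ q : T ⧸ TA, f ((⟨h, hh⟩ : T) • q) := by
          refine Finset.prod_congr rfl fun q _ => ?_
          obtain ⟨g, rfl⟩ := QuotientGroup.mk_surjective q
          show φ h (φ (g : G) u) = φ ((((⟨h, hh⟩ : T) * g : T)) : G) u
          rw [Subgroup.coe_mul, map_mul]; rfl
      _ = ∏ q : T ⧸ TA, f q := Equiv.prod_comp (MulAction.toPerm (⟨h, hh⟩ : T)) f
  have hnm : nm φ A tr = u := by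
    rw [htr, nm_prod, Fintype.prod_eq_single (QuotientGroup.mk (1 : T))]
    · rw [hf, OneMemClass.coe_one, map_one]
      exact nm_eq φ hsq hA hu1
    · intro q hq
      obtain ⟨g, rfl⟩ := QuotientGroup.mk_surjective q
      rw [hf]
      have h1 : (g : G) ∉ normalizer (A : Set G) := by
        intro h2
        apply hq
        refine QuotientGroup.eq.2 ?_
        rw [mul_one]
        exact TA.inv_mem (mem_subgroupOf.2 h2)
      obtain ⟨x, hx, hxA⟩ : ∃ x ∈ A, (g : G) * x * (g : G)⁻¹ ∉ A := by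
        by_contra hcon
        push Not at hcon
        exact h1 (mem_normalizer_fintype hcon)
      have hyZ : (g : G) * x * (g : G)⁻¹ ∈ Z := hZn.conj_mem x (hAZ hx) g
      refine hmax _ hyZ hxA _ (nm_mem φ _) (nm_comm φ (fun a ha => hZc _ hyZ _ (hAZ ha)) ?_)
      rw [← MulAut.mul_apply, ← map_mul, inv_mul_cancel_right, map_mul, MulAut.mul_apply, hu1 x hx]
  rcases hu tr hinv with h | h
  · left; rw [← hnm, h, nm_one]
  · right; rw [← hnm, h]

theorem act_main {t : ℕ} (ht : t.Prime) (ht2 : t ≠ 2) (hsq : ∀ w : W, w * w = 1) (hφ : Function.Injective φ)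
    (hsol : Group.IsSolvable G) (hG : ∀ p : ℕ, p.Prime → p ∣ Nat.card G → p = 2 ∨ p = t)
    {T : Subgroup G} (hTp : IsPGroup 2 T) (hTi : ¬ 2 ∣ T.index) {z : W} (hzT : ∀ g ∈ T, φ g z = z)
    (hu : ∀ w : W, (∀ g ∈ T, φ g w = w) → w = 1 ∨ w = z)
    (hgen : ∀ U : Subgroup W, z ∈ U → (∀ g : G, ∀ u ∈ U, φ g u ∈ U) → U = ⊤)
    (hG1 : ∃ g : G, φ g z ≠ z) :
    ∃ n j : ℕ, 1 ≤ n ∧ n ≤ 2 ^ j ∧ 2 ^ j ∣ t - 1 ∧ t ∣ 2 ^ n - 1 := by
  classical
  have hF : Fact (Nat.Prime 2) := ⟨Nat.prime_two⟩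
  have hFt : Fact t.Prime := ⟨ht⟩
  obtain ⟨g₁, hg₁⟩ := hG1
  -- invariant subgroups
  have hfxn : ∀ L : Subgroup G, L.Normal → ∀ g : G, ∀ u ∈ fx φ L, φ g u ∈ fx φ L := fun L hL g u hu' =>
    fx_inv φ (fun b hb => by simpa using hL.conj_mem b hb g⁻¹) hu'
  have hkey : ∀ L : Subgroup G, L.Normal → z ∈ fx φ L → L = ⊥ := by
    intro L hL hz
    have h1 := hgen _ hz (hfxn L hL)
    rw [eq_bot_iff]
    intro g hg
    refine mem_bot.2 (hφ ?_)
    ext w
    have h2 : w ∈ fx φ L := by rw [h1]; exact mem_top w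
    rw [map_one]; exact h2 g hg
  -- no normal 2-subgroup
  have hO : ∀ L : Subgroup G, L.Normal → IsPGroup 2 L → L = ⊥ := by
    intro L hL hLp
    refine hkey L hL fun b hb => hzT b ?_
    have h1 : IsPGroup 2 (T ⊔ L : Subgroup G) := hTp.to_sup_of_normal_right hLp
    have h2 : (T ⊔ L : Subgroup G) = T := by
      have h3 := (hTp.toSylow hTi).is_maximal' h1 (by rw [IsPGroup.toSylow_coe]; exact le_sup_left)
      rw [IsPGroup.toSylow_coe] at h3
      exact h3
    rw [← h2]
    exact (le_sup_right : L ≤ T ⊔ L) hb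
  have hne : Nat.card G ≠ 1 := by
    intro h
    have h1 : g₁ = 1 := by
      have := (Nat.card_eq_one_iff_unique.1 h).1
      exact Subsingleton.elim _ _
    rw [h1, map_one] at hg₁
    exact hg₁ rfl
  obtain ⟨s, hs, R, hRn, hR1, hRs⟩ := Cfsg.Agent.H571.DExt.exists_normal_pgroup G hne hsol
  have hFs : Fact s.Prime := ⟨hs⟩
  have hst : s = t := by
    obtain ⟨k, hk⟩ := hRs.exists_card_eq
    have hk0 : k ≠ 0 := by
      rintro rfl
      rw [pow_zero] at hk
      exact hR1 (Subgroup.eq_bot_of_card_eq R hk)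
    have h1 : s ∣ Nat.card G := by
      refine Dvd.dvd.trans ?_ (card_subgroup_dvd_card R)
      rw [hk]; exact dvd_pow_self s hk0
    rcases hG s hs h1 with h | h
    · subst h
      exact absurd (hO R hRn hRs) hR1
    · exact h
  subst hst
  -- the elementary abelian normal subgroup `Z`
  let Z : Subgroup G :=
    { carrier := {v | v ∈ R ∧ (∀ n ∈ R, n * v = v * n) ∧ v ^ s = 1}
      mul_mem' := by
        rintro v w ⟨hv, hv1, hv2⟩ ⟨hw, hw1, hw2⟩
        refine ⟨R.mul_mem hv hw, fun n hn => ?_, ?_⟩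
        · calc n * (v * w) = (n * v) * w := by group
            _ = v * (n * w) := by rw [hv1 n hn]; group
            _ = v * w * n := by rw [hw1 n hn]; group
        · rw [(show Commute v w from hw1 v hv).mul_pow, hv2, hw2, one_mul]
      one_mem' := ⟨R.one_mem, fun n _ => by rw [mul_one, one_mul], one_pow _⟩
      inv_mem' := by
        rintro v ⟨hv, hv1, hv2⟩
        exact ⟨R.inv_mem hv, fun n hn => ((show Commute n v from hv1 n hn).inv_right).eq, by
          rw [inv_pow, hv2, inv_one]⟩ }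
  have hZR : Z ≤ R := fun x hx => hx.1
  have hZt : ∀ x ∈ Z, x ^ s = 1 := fun x hx => hx.2.2
  have hZc : ∀ x ∈ Z, ∀ y ∈ Z, x * y = y * x := fun x hx y hy => hy.2.1 x hx.1
  have hZn : Z.Normal := by
    refine ⟨?_⟩
    rintro v ⟨hv, hv1, hv2⟩ g
    refine ⟨hRn.conj_mem v hv g, fun n hn => ?_, ?_⟩
    · have h1 := hv1 (g⁻¹ * n * g) (by simpa using hRn.conj_mem n hn g⁻¹)
      calc n * (g * v * g⁻¹) = g * ((g⁻¹ * n * g) * v) * g⁻¹ := by group
        _ = g * (v * (g⁻¹ * n * g)) * g⁻¹ := by rw [h1]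
        _ = _ := by group
    · rw [conj_pow, hv2, mul_one, mul_inv_cancel]
  have hZ1 : Z ≠ ⊥ := by
    have hnt : Nontrivial R := (Subgroup.nontrivial_iff_ne_bot _).mpr hR1
    have h1 := hRs.center_nontrivial
    obtain ⟨k, hk⟩ := (hRs.to_subgroup (center R)).exists_card_eq
    have hk0 : k ≠ 0 := by
      rintro rfl
      rw [pow_zero] at hk
      have := Finite.one_lt_card (α := center R)
      omega
    obtain ⟨w, hw⟩ := exists_prime_orderOf_dvd_card' (G := center R) s (by rw [hk]; exact dvd_pow_self s hk0)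
    intro h2
    have h3 : ((w : R) : G) ∈ Z := by
      refine ⟨(w : R).2, fun n hn => congrArg Subtype.val (mem_center_iff.mp w.2 ⟨n, hn⟩), ?_⟩
      have h4 : w ^ s = 1 := by rw [← hw]; exact pow_orderOf_eq_one w
      exact congrArg (fun y : center R => ((y : R) : G)) h4
    rw [h2] at h3
    have h4 : w = 1 := Subtype.ext (Subtype.ext (mem_bot.1 h3))
    rw [h4, orderOf_one] at hw
    exact hs.one_lt.ne hw
  have hfZ : fx φ Z = ⊥ := by
    by_contra hcon
    obtain ⟨u, hu1, hu2, hu3⟩ := exists_fixed φ hTp hsq hcon (fun g _ => hfxn Z hZn g)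
    rcases hu u hu3 with h | h
    · exact hu2 h
    · exact hZ1 (hkey Z hZn (h ▸ hu1))
  -- the hyperplane
  obtain ⟨B, hB, hBfix⟩ : ∃ B : Subgroup Z, B.index = s ∧ ∃ w : W, w ≠ 1 ∧ ∀ b ∈ B, φ (b : G) w = w := by
    by_contra hcon
    push Not at hcon
    let _ : CommGroup Z := { (inferInstance : Group Z) with mul_comm := fun a b => Subtype.ext (hZc a a.2 b b.2) }
    have hnt : Nontrivial Z := (Subgroup.nontrivial_iff_ne_bot _).mpr hZ1
    have hWp : IsPGroup 2 W := fun w => ⟨1, by rw [pow_one, pow_two]; exact hsq w⟩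
    have h1 := Cfsg.Agent.Lib.CoprimeHyperplane.iSup_fix_eq_top_of_isPGroup (A := Z) (R := W) (φ.comp Z.subtype)
      (p := s) (q := 2) ht2 (fun a => Subtype.ext (hZt a a.2)) hWp
    have h2 : (⊤ : Subgroup W) ≤ ⊥ := by
      rw [← h1]
      refine iSup_le fun B => ?_
      intro w hw
      by_contra hw1
      obtain ⟨b, hb, hbw⟩ := hcon B.1 B.2 w (fun h => hw1 (mem_bot.2 h))
      exact hbw (hw b hb)
    have h3 : z = 1 := mem_bot.1 (h2 (mem_top z))
    rw [h3, map_one] at hg₁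
    exact hg₁ rfl
  set A : Subgroup G := B.map Z.subtype with hA
  have hAZ : A ≤ Z := map_subtype_le _
  have hAi : A.relIndex Z = s := by
    rw [← hB, hA]
    unfold relIndex
    congr 1
    exact comap_map_eq_self_of_injective (subtype_injective Z) B
  have hfA : fx φ A ≠ ⊥ := by
    obtain ⟨w, hw, hwb⟩ := hBfix
    intro h
    apply hw
    have h1 : w ∈ fx φ A := by
      rintro _ ⟨b, hb, rfl⟩
      exact hwb b hb
    rw [h] at h1
    exact mem_bot.1 h1
  have hmax : ∀ y ∈ Z, y ∉ A → ∀ w ∈ fx φ A, φ y w = w → w = 1 := by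
    intro y hy hyA w hw hyw
    set M := A ⊔ zpowers y with hM
    have hAM : A ≤ M := le_sup_left
    have hMZ : M ≤ Z := sup_le hAZ (zpowers_le.2 hy)
    have h1 := relIndex_mul_relIndex A M Z hAM hMZ
    rw [hAi] at h1
    have h2 : A.relIndex M ≠ 1 := by
      rw [Ne, relIndex_eq_one]
      intro h3
      exact hyA (h3 ((le_sup_right : zpowers y ≤ M) (mem_zpowers y)))
    have h3 : A.relIndex M = s := by
      rcases (Nat.dvd_prime ht).1 (Dvd.intro _ h1) with h4 | h4
      · exact absurd h4 h2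
      · exact h4
    have h4 : M.relIndex Z = 1 := by
      rw [h3] at h1
      exact Nat.eq_of_mul_eq_mul_left ht.pos (by rw [h1, mul_one])
    rw [relIndex_eq_one] at h4
    let St : Subgroup G :=
      { carrier := {g | φ g w = w}
        mul_mem' := fun {a b} ha hb => by
          show φ (a * b) w = w
          rw [map_mul, MulAut.mul_apply, show φ b w = w from hb, show φ a w = w from ha]
        one_mem' := by show φ 1 w = w; rw [map_one]; rfl
        inv_mem' := fun {a} ha => by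
          show φ a⁻¹ w = w
          have h5 : φ a w = w := ha
          calc φ a⁻¹ w = φ a⁻¹ (φ a w) := by rw [h5]
            _ = w := by rw [← MulAut.mul_apply, ← map_mul, inv_mul_cancel, map_one]; rfl }
    have h5 : M ≤ St := sup_le hw (zpowers_le.2 hyw)
    have h6 : w ∈ fx φ Z := fun b hb => h5 (h4 hb)
    rw [hfZ] at h6
    exact mem_bot.1 h6
  let _ : Fintype A := Fintype.ofFinite _
  have hsodd : ¬ 2 ∣ s := fun h => ht2 ((Nat.prime_dvd_prime_iff_eq Nat.prime_two ht).1 h).symm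
  have hA2 : ¬ 2 ∣ Nat.card A := by
    obtain ⟨k, hk⟩ := (hRs.to_le (hAZ.trans hZR)).exists_card_eq
    rw [hk]
    exact fun h => hsodd (Nat.prime_two.dvd_of_dvd_pow h)
  set N := normalizer (A : Set G) with hN
  have hfix : ∀ u ∈ fx φ A, (∀ g ∈ T, g ∈ N → φ g u = u) → u = 1 ∨ u = nm φ A z := fun u hu1 hu2 =>
    fix_small φ hZc hZn hAZ hmax hsq hA2 hu hu1 hu2
  have hZN : Z ≤ N := by
    intro x hx
    apply mem_normalizer_fintype
    intro a ha
    rw [hZc x hx a (hAZ ha), mul_inv_cancel_right]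
    exact ha
  have hNinv : ∀ g ∈ N, ∀ u ∈ fx φ A, φ g u ∈ fx φ A := fun g hg u hu1 =>
    fx_inv φ (fun b hb => by
      have := (mem_normalizer_iff.1 (N.inv_mem hg) b).1 hb
      rwa [inv_inv] at this) hu1
  -- the action on `Z / A`
  set A' : Subgroup N := A.subgroupOf N with hA'
  have hA'n : A'.Normal := normal_in_normalizer
  set Zb : Subgroup (N ⧸ A') := (Z.subgroupOf N).map (QuotientGroup.mk' A') with hZb
  have hZbn : Zb.Normal := Normal.map inferInstance _ (QuotientGroup.mk'_surjective A')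
  have hZbc : Nat.card Zb = s := by
    have h1 := Cfsg.Agent.Solvable.Hall.card_map_mk A' (Z.subgroupOf N)
    have h2 : Nat.card (Z.subgroupOf N) = Nat.card Z := Nat.card_congr (subgroupOfEquivOfLe hZN).toEquiv
    have h3 : Nat.card (A' ⊓ Z.subgroupOf N : Subgroup N) = Nat.card A := by
      have h4 : (A' ⊓ Z.subgroupOf N : Subgroup N) = A' := inf_eq_left.2 fun x hx => hAZ hx
      rw [h4]
      exact Nat.card_congr (subgroupOfEquivOfLe (hAZ.trans hZN)).toEquiv
    rw [h2, h3, ← hZb] at h1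
    have h4 := (A.subgroupOf Z).card_mul_index
    have h5 : (A.subgroupOf Z).index = s := hAi
    rw [h5, Nat.card_congr (subgroupOfEquivOfLe hAZ).toEquiv] at h4
    apply Nat.eq_of_mul_eq_mul_right (Nat.card_pos (α := A))
    rw [h1, ← h4, mul_comm]
  set TN : Subgroup G := T ⊓ N with hTN
  have hTNp : IsPGroup 2 TN := hTp.to_le inf_le_left
  let f : TN →* MulAut Zb := (MulAut.conjNormal (H := Zb)).comp
    ((QuotientGroup.mk' A').comp (inclusion (inf_le_right : TN ≤ N)))
  have hfk : ∀ g : TN, f g = 1 → ∀ x ∈ Z, x⁻¹ * ((g : G) * x * (g : G)⁻¹) ∈ A := by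
    intro g hg x hx
    have h1 := DFunLike.congr_fun hg ⟨QuotientGroup.mk' A' ⟨x, hZN hx⟩, ⟨⟨x, hZN hx⟩, hx, rfl⟩⟩
    have h2 := congrArg Subtype.val h1
    have h3 : QuotientGroup.mk' A' (inclusion (inf_le_right : TN ≤ N) g) * QuotientGroup.mk' A' ⟨x, hZN hx⟩ *
        (QuotientGroup.mk' A' (inclusion (inf_le_right : TN ≤ N) g))⁻¹ = QuotientGroup.mk' A' ⟨x, hZN hx⟩ := h2
    rw [← map_inv, ← map_mul, ← map_mul] at h3
    exact mem_subgroupOf.1 (QuotientGroup.eq.1 h3.symm)
  have hcyc : IsCyclic Zb := isCyclic_of_prime_card hZbc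
  have hcycM : IsCyclic (MulAut Zb) := by
    have hZ : IsCyclic (ZMod (Nat.card Zb))ˣ := by rw [hZbc]; exact ZMod.isCyclic_units_prime ht
    exact isCyclic_of_injective (IsCyclic.mulAutMulEquiv Zb).toMonoidHom (IsCyclic.mulAutMulEquiv Zb).injective
  have hcycR : IsCyclic f.range := inferInstance
  obtain ⟨⟨_, ⟨h, rfl⟩⟩, hgenr⟩ := hcycR.exists_generator
  obtain ⟨j, hj⟩ := (hTNp.of_surjective f.rangeRestrict f.rangeRestrict_surjective).exists_card_eq
  have hjd : 2 ^ j ∣ s - 1 := by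
    have h1 : 2 ^ j ∣ Nat.card (MulAut Zb) := by rw [← hj]; exact card_subgroup_dvd_card _
    rwa [hcyc.card_mulAut, hZbc, Nat.totient_prime ht] at h1
  have hpow : f (h ^ 2 ^ j) = 1 := by
    have h1 : (⟨f h, ⟨h, rfl⟩⟩ : f.range) ^ Nat.card f.range = 1 := pow_card_eq_one'
    rw [hj] at h1
    rw [map_pow]
    exact congrArg Subtype.val h1
  have hgen' : ∀ g : TN, ∃ (k : ℤ) (d : TN), f d = 1 ∧ g = h ^ k * d := by
    intro g
    obtain ⟨k, hk⟩ := mem_zpowers_iff.1 (hgenr ⟨f g, ⟨g, rfl⟩⟩)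
    have hk' : f h ^ k = f g := congrArg Subtype.val hk
    refine ⟨k, (h ^ k)⁻¹ * g, ?_, by group⟩
    rw [map_mul, map_inv, map_zpow, hk', inv_mul_cancel]
  -- the kernel `D`
  set D : Subgroup G := f.ker.map TN.subtype with hD
  have hDp : IsPGroup 2 D := (hTNp.to_subgroup f.ker).map _
  have hDN : ∀ d ∈ D, d ∈ N := by
    rintro _ ⟨d, -, rfl⟩
    exact d.2.2
  set U : Subgroup W := fx φ A ⊓ fx φ D with hU
  have hU1 : U ≠ ⊥ := by
    obtain ⟨u, hu1, hu2, hu3⟩ := exists_fixed φ hDp hsq hfA (fun g hg => hNinv g (hDN g hg))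
    intro h
    apply hu2
    have h1 : u ∈ U := ⟨hu1, hu3⟩
    rw [h] at h1
    exact mem_bot.1 h1
  have hUinv : ∀ g : TN, ∀ u ∈ U, φ (g : G) u ∈ U := by
    rintro g u ⟨hu1, hu2⟩
    refine ⟨hNinv g g.2.2 u hu1, fx_inv φ ?_ hu2⟩
    rintro _ ⟨d, hd, rfl⟩
    refine ⟨g⁻¹ * d * g, ?_, rfl⟩
    rw [SetLike.mem_coe, MonoidHom.mem_ker] at hd ⊢
    rw [map_mul, map_mul, hd, mul_one, ← map_mul, inv_mul_cancel, map_one]
  let θ : MulAut U :=
    { toFun := fun u => ⟨φ (h : G) u, hUinv h u u.2⟩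
      invFun := fun u => ⟨φ ((h⁻¹ : TN) : G) u, hUinv h⁻¹ u u.2⟩
      left_inv := fun u => Subtype.ext (by
        show φ ((h⁻¹ : TN) : G) (φ (h : G) u) = u
        rw [← MulAut.mul_apply, ← map_mul, ← Subgroup.coe_mul, inv_mul_cancel, OneMemClass.coe_one, map_one]; rfl)
      right_inv := fun u => Subtype.ext (by
        show φ (h : G) (φ ((h⁻¹ : TN) : G) u) = u
        rw [← MulAut.mul_apply, ← map_mul, ← Subgroup.coe_mul, mul_inv_cancel, OneMemClass.coe_one, map_one]; rfl)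
      map_mul' := fun u v => Subtype.ext (map_mul (φ (h : G)) (u : W) (v : W)) }
  have hθ : ∀ (n : ℕ) (u : U), (((θ ^ n) u : U) : W) = φ ((h ^ n : TN) : G) (u : W) := by
    intro n
    induction n with
    | zero => intro u; rw [pow_zero, pow_zero, OneMemClass.coe_one, map_one]; rfl
    | succ n ih =>
      intro u
      rw [pow_succ', pow_succ', MulAut.mul_apply, Subgroup.coe_mul, map_mul, MulAut.mul_apply, ← ih u]
      rfl
  have hθ1 : θ ^ 2 ^ j = 1 := by
    ext u
    rw [hθ]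
    exact u.2.2 _ ⟨h ^ 2 ^ j, MonoidHom.mem_ker.2 hpow, rfl⟩
  have hsqU : ∀ w : U, w * w = 1 := fun w => Subtype.ext (hsq w)
  have h1 := card_le_pow hsqU j θ hθ1
  have h2 : Nat.card (fixA θ) ≤ 2 := by
    have h3 : ∀ u ∈ (fixA θ).map U.subtype, u = 1 ∨ u = nm φ A z := by
      rintro _ ⟨u, hu1, rfl⟩
      have hu1 : φ (h : G) (u : W) = u := congrArg Subtype.val (show θ u = u from hu1)
      refine hfix _ u.2.1 fun g hgT hgN => ?_
      obtain ⟨k, d, hd, hkd⟩ := hgen' ⟨g, hgT, hgN⟩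
      have h4 : g = (h : G) ^ k * (d : G) := by
        have := congrArg Subtype.val hkd
        simpa using this
      have h5 : φ (d : G) (u : W) = u := u.2.2 _ ⟨d, MonoidHom.mem_ker.2 hd, rfl⟩
      let St : Subgroup G :=
        { carrier := {g | φ g (u : W) = u}
          mul_mem' := fun {a b} ha hb => by
            show φ (a * b) (u : W) = u
            rw [map_mul, MulAut.mul_apply, show φ b (u : W) = u from hb, show φ a (u : W) = u from ha]
          one_mem' := by show φ 1 (u : W) = u; rw [map_one]; rfl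
          inv_mem' := fun {a} ha => by
            show φ a⁻¹ (u : W) = u
            have h5 : φ a (u : W) = u := ha
            calc φ a⁻¹ (u : W) = φ a⁻¹ (φ a (u : W)) := by rw [h5]
              _ = u := by rw [← MulAut.mul_apply, ← map_mul, inv_mul_cancel, map_one]; rfl }
      have h6 : (h : G) ∈ St := hu1
      have h7 : (d : G) ∈ St := h5
      show φ g (u : W) = u
      rw [h4]
      exact St.mul_mem (St.zpow_mem h6 k) h7
    rw [← card_map_of_injective (subtype_injective U)]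
    have h4 : Set.ncard (((fixA θ).map U.subtype : Subgroup W) : Set W) ≤ Set.ncard ({1, nm φ A z} : Set W) :=
      Set.ncard_le_ncard (fun v hv => by
        rcases h3 v hv with h | h
        · exact Or.inl h
        · exact Or.inr h)
    exact h4.trans (Set.ncard_insert_le _ _ |>.trans (by rw [Set.ncard_singleton]))
  have hUp : IsPGroup 2 U := fun u => ⟨1, by rw [pow_one, pow_two]; exact hsqU u⟩
  obtain ⟨n, hn⟩ := hUp.exists_card_eq
  refine ⟨n, j, ?_, ?_, hjd, ?_⟩
  · rcases Nat.eq_zero_or_pos n with h0 | h0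
    · rw [h0, pow_zero] at hn
      exact absurd (Subgroup.eq_bot_of_card_eq U hn) hU1
    · exact h0
  · have h3 := h1.trans (Nat.pow_le_pow_left h2 _)
    rw [hn] at h3
    exact (Nat.pow_le_pow_iff_right (by norm_num)).1 h3
  · obtain ⟨x, hxZ, hxA⟩ : ∃ x ∈ Z, x ∉ A := by
      by_contra hcon
      push Not at hcon
      have h3 : A.relIndex Z = 1 := relIndex_eq_one.2 hcon
      rw [hAi] at h3
      exact ht.one_lt.ne' h3
    have hxinv : ∀ u ∈ U, φ x u ∈ U := by
      rintro u ⟨hu1, hu2⟩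
      refine ⟨hNinv x (hZN hxZ) u hu1, ?_⟩
      rintro _ ⟨d, hd, rfl⟩
      have h4 := hfk d (MonoidHom.mem_ker.1 hd) x hxZ
      have h5 : φ (d : G) u = u := hu2 _ ⟨d, hd, rfl⟩
      show φ (d : G) (φ x u) = φ x u
      have h6 : (d : G) * x = x * (x⁻¹ * ((d : G) * x * (d : G)⁻¹)) * (d : G) := by group
      rw [← MulAut.mul_apply, ← map_mul, h6, map_mul, map_mul, MulAut.mul_apply, MulAut.mul_apply, h5,
        hu1 _ h4]
    have h3 := card_mod φ ht (hZt x hxZ) hxinv (fun u hu1 hu2 => hmax x hxZ hxA u hu1.1 hu2)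
    rw [hn] at h3
    exact (Nat.modEq_iff_dvd' (Nat.one_le_pow _ _ (by norm_num))).1 h3.symm

end Cfsg.Agent.H464.RM.ZTAct
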